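import Cfsg.Agent.H674.Dl.OrthEight
import Cfsg.Agent.H759.Dl.Asm

/-!
# The orthogonal rows of S4769 (helper674)

* `row_odd`, `row_plus'`, `row_minus` : the rows for `p ≠ r`;
* `rowF_odd`, `rowF_plus`, `rowF_minus` : the fields of `H759.Dl.Missing`, from the rows `p = r` (`EqOdd`, `EqPlus`, `EqMinus`).
-/

set_option autoImplicit false

open Cfsg

namespace Cfsg.Agent.H674.Dl

open Module Cfsg.Agent.H53.HC Cfsg.Agent.H477.HC Cfsg.Agent.H749.Two Cfsg.Agent.H246.Dl Cfsg.Agent.H759.Dl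

universe u

theorem row_plus' (T : H596.OneFacts.FactTwo.{u}) (I : H671.H5.FactIM.{u}) {K : Type} [Field K]
    [Finite K] (p : ℕ) [Fact p.Prime] [CharP K p] {m : ℕ} (hm : 4 ≤ m) {S : Type u} [Group S] [Finite S]
    [IsSimpleGroup S] (iso : S ≃* POmega K (quadFormPlus m K)) {r : ℕ} (hr : r.Prime) (hd : r ∣ Nat.card S)
    (hrp : r ≠ p) : Row r S :=
  row_plus plusEightThree T I p hm iso hr hd hrp

/-- the rows `p = r` -/
def EqOdd : Prop := ∀ {K : Type} [Field K] [Finite K] (p : ℕ) [Fact p.Prime] [CharP K p] {m : ℕ}, 3 ≤ m →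
  Odd (Nat.card K) → ∀ {S : Type u} [Group S] [Finite S] [IsSimpleGroup S], (S ≃* POmega K (quadFormOdd m K)) → Row p S

/-- the rows `p = r` -/
def EqPlus : Prop := ∀ {K : Type} [Field K] [Finite K] (p : ℕ) [Fact p.Prime] [CharP K p] {m : ℕ}, 4 ≤ m →
  ∀ {S : Type u} [Group S] [Finite S] [IsSimpleGroup S], (S ≃* POmega K (quadFormPlus m K)) → Row p S

/-- the rows `p = r` -/
def EqMinus : Prop := ∀ {K : Type} [Field K] [Finite K] (p : ℕ) [Fact p.Prime] [CharP K p] {l : ℕ} {a b : K},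
  (∀ z₁ z₂ : K, z₁ ^ 2 + a * z₁ * z₂ + b * z₂ ^ 2 = 0 → z₁ = 0 ∧ z₂ = 0) → 3 ≤ l →
  ∀ {S : Type u} [Group S] [Finite S] [IsSimpleGroup S], (S ≃* POmega K (quadFormMinus l K a b)) → Row p S

theorem exists_char (K : Type) [Field K] [Finite K] : ∃ p, p.Prime ∧ CharP K p := by
  obtain ⟨p, hp⟩ := CharP.exists K
  let _ := Fintype.ofFinite K
  obtain ⟨n, hpp, hn⟩ := FiniteField.card K p
  exact ⟨p, hpp, hp⟩

theorem rowF_odd (T : H596.OneFacts.FactTwo.{u}) (I : H671.H5.FactIM.{u}) (E : EqOdd.{u}) :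
    RowF.{u} (fun S => IsPOmegaOdd S) := by
  intro S _ _ _ h r hr hd
  obtain ⟨K, _, _, m, hm, ho, ⟨iso⟩⟩ := h
  obtain ⟨p, hp, hch⟩ := exists_char K
  have : Fact p.Prime := ⟨hp⟩
  rw [← Nat.card_eq_fintype_card] at ho
  by_cases hrp : r = p
  · subst hrp
    exact E r hm ho iso
  · exact row_odd T I p ho hm iso hr hd hrp

theorem rowF_plus (T : H596.OneFacts.FactTwo.{u}) (I : H671.H5.FactIM.{u}) (E : EqPlus.{u}) :
    RowF.{u} (fun S => IsPOmegaPlus S) := by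
  intro S _ _ _ h r hr hd
  obtain ⟨K, _, _, m, hm, ⟨iso⟩⟩ := h
  obtain ⟨p, hp, hch⟩ := exists_char K
  have : Fact p.Prime := ⟨hp⟩
  by_cases hrp : r = p
  · subst hrp
    exact E r hm iso
  · exact row_plus' T I p hm iso hr hd hrp

theorem rowF_minus (T : H596.OneFacts.FactTwo.{u}) (I : H671.H5.FactIM.{u}) (E : EqMinus.{u}) :
    RowF.{u} (fun S => IsPOmegaMinus S) := by
  intro S _ _ _ h r hr hd
  obtain ⟨K, _, _, m, a, b, hm, hab, ⟨iso⟩⟩ := h
  obtain ⟨p, hp, hch⟩ := exists_char K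
  have : Fact p.Prime := ⟨hp⟩
  by_cases hrp : r = p
  · subst hrp
    exact E r hab (by omega) iso
  · exact row_minus T I p hab (by omega) iso hr hd hrp

end Cfsg.Agent.H674.Dl

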