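import Cfsg.Agent.H674.Dl.OrthMinus
import Cfsg.Agent.H168.GLFour

/-!
# The Sylow 2-subgroups of `PΩ⁺_8(3)` have derived length at most 3 (helper674, S4769)

The form is `Σ x_i²` over the field with three elements; the signed permutation matrices `(ε, σ)` with `∏ ε = 1`, `σ` even lie in
`Ω` and contain a Sylow 2-subgroup of `Ω`; the Sylow 2-subgroups of `A₈ = GL_4(2)` have derived length 2.
-/

set_option autoImplicit false

open Cfsg

namespace Cfsg.Agent.H674.Dl

open Module Cfsg.Agent.H53.HC Cfsg.Agent.H477.HC Cfsg.Agent.H749.Two Cfsg.Agent.H246.Dl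

open scoped commutatorElement

universe u v w

section transfer

variable {G : Type u} [Group G] [Finite G] {H : Type v} [Group H] [Finite H] {p : ℕ} [hp : Fact p.Prime]

theorem derivedSeries_equiv {A : Type u} {B : Type v} [Group A] [Group B] (e : A ≃* B) {d : ℕ}
    (h : derivedSeries B d = ⊥) : derivedSeries A d = ⊥ := by
  have h1 := map_derivedSeries_eq e.symm.surjective d (f := e.symm.toMonoidHom)
  rw [← h1, h, Subgroup.map_bot]

/-- a subgroup of index prime to `p` -/
theorem dlLe_of_sub (f : H →* G) (hf : Function.Injective f) {n d : ℕ} (hH : p ^ n ∣ Nat.card H)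
    (hG : ¬ p ^ (n + 1) ∣ Nat.card G) (h : DlLe p d H) : DlLe p d G := by
  intro P
  obtain ⟨Q⟩ : Nonempty (Sylow p H) := inferInstance
  have hG0 : Nat.card G ≠ 0 := Nat.card_pos.ne'
  have hH0 : Nat.card H ≠ 0 := Nat.card_pos.ne'
  have hcQ : Nat.card ((Q : Subgroup H).map f) = p ^ (Nat.card H).factorization p := by
    rw [← Sylow.card_eq_multiplicity Q]
    exact (Nat.card_congr ((Q : Subgroup H).equivMapOfInjective f hf).toEquiv).symm
  have h1 : n ≤ (Nat.card H).factorization p := (hp.out.pow_dvd_iff_le_factorization hH0).1 hH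
  have h2 : (Nat.card G).factorization p < n + 1 := by
    by_contra hcon
    exact hG ((hp.out.pow_dvd_iff_le_factorization hG0).2 (not_lt.1 hcon))
  have h3 : (Nat.card H).factorization p ≤ (Nat.card G).factorization p := by
    rw [← hp.out.pow_dvd_iff_le_factorization hG0, ← hcQ]
    exact Subgroup.card_subgroup_dvd_card _
  have h4 : (Nat.card H).factorization p = (Nat.card G).factorization p := by omega
  rw [h4] at hcQ
  let R : Sylow p G := Sylow.ofCard ((Q : Subgroup H).map f) hcQ
  have e1 : ↥(P : Subgroup G) ≃* ↥(R : Subgroup G) := Sylow.equiv P R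
  have e2 : ↥(Q : Subgroup H) ≃* ↥((Q : Subgroup H).map f) := (Q : Subgroup H).equivMapOfInjective f hf
  refine derivedSeries_equiv e1 ?_
  exact derivedSeries_equiv e2.symm (h Q)

end transfer

/-! ### the group of signed permutations -/

section mon

/-- the action -/
def act : Equiv.Perm (Fin 8) →* MulAut (Fin 8 → ℤˣ) where
  toFun σ :=
    { toFun := fun ε i => ε (σ⁻¹ i)
      invFun := fun ε i => ε (σ i)
      left_inv := fun ε => by ext i; simp
      right_inv := fun ε => by ext i; simp
      map_mul' := fun _ _ => rfl }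
  map_one' := rfl
  map_mul' := fun _ _ => rfl

/-- signed permutations -/
abbrev SP : Type := (Fin 8 → ℤˣ) ⋊[act] Equiv.Perm (Fin 8)

theorem act_apply (σ : Equiv.Perm (Fin 8)) (ε : Fin 8 → ℤˣ) (i : Fin 8) : act σ ε i = ε (σ⁻¹ i) := rfl

instance : Finite SP := Finite.of_equiv _ SemidirectProduct.equivProd.symm

/-- the two signs -/
def sgn2 : SP →* ℤˣ × ℤˣ where
  toFun g := (∏ i, g.left i, Equiv.Perm.sign g.right)
  map_one' := by
    apply Prod.ext
    · change ∏ i : Fin 8, (1 : ℤˣ) = 1
      simp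
    · exact map_one _
  map_mul' := fun g h => by
    apply Prod.ext
    · change ∏ i, (g.left i * act g.right h.left i) = _
      rw [Finset.prod_mul_distrib]
      congr 1
      exact Equiv.prod_comp g.right⁻¹ h.left
    · exact map_mul _ _ _

/-- the even signed permutations with product of the signs `1` -/
def ESP : Subgroup SP := sgn2.ker

theorem card_ESP : 2 ^ 13 ∣ Nat.card ESP := by
  have h1 : Nat.card SP = 2 ^ 15 * 315 := by
    rw [SemidirectProduct.card, Nat.card_eq_fintype_card, Nat.card_eq_fintype_card, Fintype.card_perm]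
    simp only [Fintype.card_pi, Fintype.card_units_int, Finset.prod_const, Finset.card_univ, Fintype.card_fin]
    norm_num [Nat.factorial]
  have h2 : Nat.card ESP * Nat.card sgn2.range = Nat.card SP := by
    rw [← Nat.card_congr (QuotientGroup.quotientKerEquivRange sgn2).toEquiv, mul_comm]
    exact (Subgroup.card_eq_card_quotient_mul_card_subgroup _).symm
  have h3 : Nat.card sgn2.range ∣ 4 := by
    have := Subgroup.card_subgroup_dvd_card sgn2.range
    have h4 : Nat.card (ℤˣ × ℤˣ) = 4 := by
      rw [Nat.card_eq_fintype_card]; rfl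
    rwa [h4] at this
  have h4 : 2 ^ 13 * 4 ∣ Nat.card ESP * 4 := by
    have h5 : 2 ^ 13 * 4 ∣ Nat.card ESP * Nat.card sgn2.range := by
      rw [h2, h1]; exact ⟨315, by norm_num⟩
    exact h5.trans (Nat.mul_dvd_mul_left _ h3)
  exact Nat.dvd_of_mul_dvd_mul_right (by norm_num) h4

/-- **in the commutator subgroup** -/
theorem ESP_le : ESP ≤ commutator SP := by
  intro g hg
  have hg' : sgn2 g = 1 := hg
  have h1 : ∏ i, g.left i = 1 := congrArg Prod.fst hg'
  have h2 : Equiv.Perm.sign g.right = 1 := congrArg Prod.snd hg'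
  rw [← SemidirectProduct.inl_left_mul_inr_right g]
  refine Subgroup.mul_mem _ ?_ ?_
  · -- diagonal
    have h3 : g.left = ∏ i, (Pi.mulSingle i (g.left i) * Pi.mulSingle (0 : Fin 8) (g.left i)) := by
      rw [Finset.prod_mul_distrib, Finset.univ_prod_mulSingle]
      have : ∏ i, Pi.mulSingle (0 : Fin 8) (g.left i) = (1 : Fin 8 → ℤˣ) := by
        have h4 := map_prod (MonoidHom.mulSingle (fun _ : Fin 8 => ℤˣ) 0) (fun i => g.left i) Finset.univ
        rw [h1, map_one] at h4
        exact h4.symm
      rw [this, mul_one]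
    change g.left ∈ (commutator SP).comap SemidirectProduct.inl
    rw [h3]
    refine Subgroup.prod_mem _ fun i _ => ?_
    rw [Subgroup.mem_comap]
    have h4 : ∀ u : ℤˣ, (SemidirectProduct.inl (Pi.mulSingle i u * Pi.mulSingle (0 : Fin 8) u) : SP) =
        ⁅(SemidirectProduct.inl (Pi.mulSingle i u) : SP), (SemidirectProduct.inr (Equiv.swap 0 i) : SP)⁆ := by
      intro u
      have hassoc : ∀ a b : SP, a * b * a⁻¹ * b⁻¹ = a * (b * (a⁻¹ * b⁻¹)) := fun a b => by group
      rw [commutatorElement_def, hassoc]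
      have h5 : (SemidirectProduct.inr (Equiv.swap 0 i) : SP) * ((SemidirectProduct.inl (Pi.mulSingle i u) : SP)⁻¹ *
          (SemidirectProduct.inr (Equiv.swap 0 i) : SP)⁻¹) = SemidirectProduct.inl (act (Equiv.swap 0 i) (Pi.mulSingle i u)⁻¹) := by
        rw [SemidirectProduct.inl_aut, map_inv, map_inv, mul_assoc]
      rw [h5, ← map_mul]
      congr 2
      ext j
      rw [act_apply, Pi.inv_apply, Equiv.swap_inv]
      have hu : u⁻¹ = u := Int.units_inv_eq_self u
      by_cases hj : j = 0
      · subst hj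
        rw [Equiv.swap_apply_left, Pi.mulSingle_eq_same, Pi.mulSingle_eq_same, hu]
      · rw [Pi.mulSingle_eq_of_ne hj]
        have h6 : Equiv.swap 0 i j ≠ i := by
          intro h7
          apply hj
          have := congrArg (Equiv.swap 0 i) h7
          rwa [Equiv.swap_apply_self, Equiv.swap_apply_right] at this
        rw [Pi.mulSingle_eq_of_ne h6, inv_one]
    rw [h4]
    exact Subgroup.commutator_mem_commutator (Subgroup.mem_top _) (Subgroup.mem_top _)
  · have h3 : g.right ∈ commutator (Equiv.Perm (Fin 8)) := by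
      rw [alternatingGroup.commutator_perm_eq (by rw [Nat.card_fin]; norm_num), Equiv.Perm.mem_alternatingGroup]
      exact h2
    have h4 : (commutator (Equiv.Perm (Fin 8))).map (SemidirectProduct.inr : _ →* SP) ≤ commutator SP := by
      rw [commutator_def, Subgroup.map_commutator]
      exact Subgroup.commutator_mono le_top le_top
    exact h4 (Subgroup.mem_map_of_mem _ h3)

/-- the permutation -/
def toAlt : ESP →* alternatingGroup (Fin 8) :=
  (SemidirectProduct.rightHom.comp ESP.subtype).codRestrict (alternatingGroup (Fin 8)) fun g => by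
    have h : sgn2 (g : SP) = 1 := g.2
    rw [Equiv.Perm.mem_alternatingGroup]
    exact congrArg Prod.snd h

theorem dl_alt_eight (R : Subgroup (alternatingGroup (Fin 8))) (hR : IsPGroup 2 R) : derivedSeries R 2 = ⊥ := by
  have : Fact (Nat.Prime 2) := ⟨Nat.prime_two⟩
  obtain ⟨e⟩ := H168.gl_equiv (F := ZMod 2) (by rw [ZMod.card])
  have h := H755.Dl.charp (p := 2) (n := 4) (F := ZMod 2) hR (ρ := e.symm.toMonoidHom.comp R.subtype)
    (e.symm.injective.comp R.subtype_injective)
  have h1 : Nat.clog 2 4 = 2 := by norm_num [Nat.clog]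
  rwa [h1] at h

theorem dlLe_ESP : DlLe 2 3 ESP := by
  intro P
  have : Fact (Nat.Prime 2) := ⟨Nat.prime_two⟩
  have h1 := dl_alt_eight ((P : Subgroup ESP).map toAlt) (P.isPGroup'.map _)
  let π : ↥(P : Subgroup ESP) →* ↥((P : Subgroup ESP).map toAlt) := toAlt.subgroupMap (P : Subgroup ESP)
  have h2 : ∀ x ∈ derivedSeries ↥(P : Subgroup ESP) 2, π x = 1 := by
    intro x hx
    have h3 : π x ∈ derivedSeries ↥((P : Subgroup ESP).map toAlt) 2 :=
      map_derivedSeries_le_derivedSeries π 2 (Subgroup.mem_map_of_mem _ hx)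
    rw [h1] at h3
    exact Subgroup.mem_bot.1 h3
  have h3 : ∀ x ∈ derivedSeries ↥(P : Subgroup ESP) 2, ((x : ESP) : SP).right = 1 := by
    intro x hx
    have h4 := congrArg (fun y => (((y : ↥((P : Subgroup ESP).map toAlt)) : alternatingGroup (Fin 8)) :
      Equiv.Perm (Fin 8))) (h2 x hx)
    exact h4
  rw [derivedSeries_succ, eq_bot_iff, Subgroup.commutator_le]
  intro x hx y hy
  rw [Subgroup.mem_bot, commutatorElement_eq_one_iff_mul_comm]
  apply Subtype.ext
  apply Subtype.ext
  change ((x : ESP) : SP) * ((y : ESP) : SP) = ((y : ESP) : SP) * ((x : ESP) : SP)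
  apply SemidirectProduct.ext
  · rw [SemidirectProduct.mul_left, SemidirectProduct.mul_left, h3 x hx, h3 y hy, map_one, MulAut.one_apply,
      MulAut.one_apply, mul_comm]
  · rw [SemidirectProduct.mul_right, SemidirectProduct.mul_right, h3 x hx, h3 y hy]

end mon

/-! ### the representation -/

section rep

variable {K : Type} [Field K]

/-- the matrices -/
def mn0 : SP →* Module.End K (Fin 8 → K) where
  toFun g :=
    { toFun := fun x i => ((g.left i : ℤ) : K) * x (g.right⁻¹ i)
      map_add' := fun x y => by ext i; simp [mul_add]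
      map_smul' := fun c x => by ext i; simp only [Pi.smul_apply, smul_eq_mul, RingHom.id_apply]; ring }
  map_one' := by
    ext x i
    simp
  map_mul' := fun g h => by
    apply LinearMap.ext
    intro x
    ext i
    change ((((g.left * act g.right h.left) i : ℤˣ) : ℤ) : K) * x ((g.right * h.right)⁻¹ i) =
      ((g.left i : ℤ) : K) * (((h.left (g.right⁻¹ i) : ℤ) : K) * x (h.right⁻¹ (g.right⁻¹ i)))
    rw [Pi.mul_apply, act_apply, Units.val_mul, Int.cast_mul, mul_assoc, mul_inv_rev]
    rfl

theorem mn0_apply (g : SP) (x : Fin 8 → K) (i : Fin 8) : mn0 g x i = ((g.left i : ℤ) : K) * x (g.right⁻¹ i) := rfl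

theorem unit_sq (u : ℤˣ) : ((u : ℤ) : K) ^ 2 = 1 := by
  rcases Int.units_eq_one_or u with rfl | rfl <;> simp

theorem mn0_sq (g : SP) (x : Fin 8 → K) : ∑ i, (mn0 g x i) ^ 2 = ∑ i, x i ^ 2 := by
  have h1 : ∀ i, (mn0 g x i) ^ 2 = (x (g.right⁻¹ i)) ^ 2 := fun i => by
    rw [mn0_apply, mul_pow, unit_sq, one_mul]
  rw [Finset.sum_congr rfl fun i _ => h1 i]
  exact Equiv.sum_comp g.right⁻¹ fun i => x i ^ 2

theorem mn0_inj (h2 : (2 : K) ≠ 0) : Function.Injective (mn0 (K := K)) := by
  rw [injective_iff_map_eq_one]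
  intro g hg
  have h1 : ∀ (x : Fin 8 → K) (i : Fin 8), ((g.left i : ℤ) : K) * x (g.right⁻¹ i) = x i := fun x i => by
    rw [← mn0_apply, hg]; rfl
  have h3 : ∀ i, g.right⁻¹ i = i := by
    intro i
    by_contra hne
    have h4 := h1 (Pi.single i 1) i
    rw [Pi.single_eq_of_ne hne, Pi.single_eq_same, mul_zero] at h4
    exact zero_ne_one h4
  apply SemidirectProduct.ext
  · ext i
    have h4 := h1 (fun _ => 1) i
    rw [mul_one] at h4
    rcases Int.units_eq_one_or (g.left i) with h | h
    · rw [h]; rfl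
    · rw [h] at h4
      exfalso
      apply h2
      have h5 : (-1 : K) = 1 := by simpa using h4
      linear_combination -h5
  · have h4 : g.right⁻¹ = 1 := Equiv.ext h3
    rw [SemidirectProduct.one_right]
    exact inv_eq_one.1 h4

/-- half of the base change -/
def fL (x : Fin 8 → K) : Fin 4 ⊕ Fin 4 → K :=
  Sum.elim ![x 0 + x 2 + x 3, x 1 + x 2 - x 3, x 4 + x 6 + x 7, x 5 + x 6 - x 7]
    ![x 0 - x 2 - x 3, x 1 - x 2 + x 3, x 4 - x 6 - x 7, x 5 - x 6 + x 7]

/-- the base change -/
def phi (h3 : (3 : K) = 0) : (Fin 8 → K) ≃ₗ[K] (Fin 4 ⊕ Fin 4 → K) where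
  toFun := fL
  map_add' x y := by
    ext i
    rcases i with i | i <;> fin_cases i <;> simp [fL] <;> ring
  map_smul' c x := by
    ext i
    rcases i with i | i <;> fin_cases i <;> simp [fL] <;> ring
  invFun y := ![-(y (.inl 0) + y (.inr 0)), -(y (.inl 1) + y (.inr 1)),
    y (.inl 0) - y (.inr 0) + (y (.inl 1) - y (.inr 1)), y (.inl 0) - y (.inr 0) - (y (.inl 1) - y (.inr 1)),
    -(y (.inl 2) + y (.inr 2)), -(y (.inl 3) + y (.inr 3)),
    y (.inl 2) - y (.inr 2) + (y (.inl 3) - y (.inr 3)), y (.inl 2) - y (.inr 2) - (y (.inl 3) - y (.inr 3))]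
  left_inv x := by
    ext i
    fin_cases i <;> simp [fL]
    · linear_combination (-x 0) * h3
    · linear_combination (-x 1) * h3
    · linear_combination (x 2) * h3
    · linear_combination (x 3) * h3
    · linear_combination (-x 4) * h3
    · linear_combination (-x 5) * h3
    · linear_combination (x 6) * h3
    · linear_combination (x 7) * h3
  right_inv y := by
    ext i
    rcases i with i | i <;> fin_cases i <;> simp [fL]
    · linear_combination (-y (.inr 0)) * h3
    · linear_combination (-y (.inr 1)) * h3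
    · linear_combination (-y (.inr 2)) * h3
    · linear_combination (-y (.inr 3)) * h3
    · linear_combination (-y (.inl 0)) * h3
    · linear_combination (-y (.inl 1)) * h3
    · linear_combination (-y (.inl 2)) * h3
    · linear_combination (-y (.inl 3)) * h3

theorem quad_phi (h3 : (3 : K) = 0) (x : Fin 8 → K) : quadFormPlus 4 K (phi h3 x) = ∑ i, x i ^ 2 := by
  change quadFormPlus 4 K (fL x) = _
  rw [quadFormPlus, Fin.sum_univ_four, Fin.sum_univ_eight]
  simp only [fL, Sum.elim_inl, Sum.elim_inr]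
  simp
  linear_combination (-(x 2) ^ 2 - (x 3) ^ 2 - (x 6) ^ 2 - (x 7) ^ 2) * h3

/-- conjugation with the base change -/
def cj {V W : Type*} [AddCommGroup V] [Module K V] [AddCommGroup W] [Module K W] (e : V ≃ₗ[K] W) :
    (V ≃ₗ[K] V) →* (W ≃ₗ[K] W) where
  toFun g := (e.symm.trans g).trans e
  map_one' := by
    ext x
    simp
  map_mul' g h := by
    ext x
    simp

theorem cj_inj {V W : Type*} [AddCommGroup V] [Module K V] [AddCommGroup W] [Module K W] (e : V ≃ₗ[K] W) :
    Function.Injective (cj e) := by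
  intro g h hgh
  ext x
  have h1 := LinearEquiv.congr_fun hgh (e x)
  simpa [cj] using h1

/-- the representation in `GL` -/
noncomputable def psi0 (h3 : (3 : K) = 0) : SP →* GL (Fin 4 ⊕ Fin 4) K :=
  matE.symm.toMonoidHom.comp ((cj (phi h3)).comp
    ((LinearMap.GeneralLinearGroup.generalLinearEquiv K (Fin 8 → K)).toMonoidHom.comp (mn0 (K := K)).toHomUnits))

theorem psi0_apply (h3 : (3 : K) = 0) (g : SP) (v : Fin 4 ⊕ Fin 4 → K) :
    ((psi0 h3 g : GL (Fin 4 ⊕ Fin 4) K) : Matrix _ _ K).mulVec v = phi h3 (mn0 g ((phi h3).symm v)) := by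
  rw [← matE_apply]
  change matE (matE.symm _) v = _
  rw [MulEquiv.apply_symm_apply]
  rfl

theorem psi0_inj (h3 : (3 : K) = 0) (h2 : (2 : K) ≠ 0) : Function.Injective (psi0 h3) := by
  rw [injective_iff_map_eq_one]
  intro g hg
  have h4 : mn0 (K := K) g = 1 := by
    apply LinearMap.ext
    intro x
    have h5 := psi0_apply h3 g (phi h3 x)
    rw [hg, LinearEquiv.symm_apply_apply, Units.val_one, Matrix.one_mulVec] at h5
    exact ((phi h3).injective h5).symm
  exact mn0_inj h2 (h4.trans (map_one _).symm)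

/-- the representation -/
noncomputable def psi (h3 : (3 : K) = 0) : SP →* isometryGroup K (quadFormPlus 4 K) :=
  (psi0 h3).codRestrict _ fun g => by
    intro u v
    change quadFormPlus 4 K (((psi0 h3 g : GL (Fin 4 ⊕ Fin 4) K) : Matrix _ _ K).mulVec u) = quadFormPlus 4 K u
    rw [psi0_apply, quad_phi, mn0_sq, ← quad_phi h3, LinearEquiv.apply_symm_apply]

theorem psi_inj (h3 : (3 : K) = 0) (h2 : (2 : K) ≠ 0) : Function.Injective (psi h3) := fun _ _ hgh =>
  psi0_inj h3 h2 (congrArg Subtype.val hgh)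

/-- even signed permutations in `Ω` -/
noncomputable def psiE (h3 : (3 : K) = 0) : ESP →* Omega K (quadFormPlus 4 K) :=
  ((psi h3).comp ESP.subtype).codRestrict _ fun g => by
    have h4 : (commutator SP).map (psi h3) ≤ Omega K (quadFormPlus 4 K) := by
      rw [Omega, commutator_def, commutator_def, Subgroup.map_commutator]
      exact Subgroup.commutator_mono le_top le_top
    exact h4 (Subgroup.mem_map_of_mem _ (ESP_le g.2))

theorem psiE_inj (h3 : (3 : K) = 0) (h2 : (2 : K) ≠ 0) : Function.Injective (psiE h3) := fun _ _ hgh =>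
  Subtype.ext (psi_inj h3 h2 (congrArg Subtype.val hgh))

theorem dlLe_sub {G : Type u} [Group G] {p d : ℕ} (h : DlLe p d G) (Q : Subgroup G) (hQ : IsPGroup p Q) :
    derivedSeries ↥Q d = ⊥ := by
  obtain ⟨P, hP⟩ := hQ.exists_le_sylow
  have h1 : (derivedSeries ↥Q d).map (Subgroup.inclusion hP) ≤ derivedSeries ↥(P : Subgroup G) d :=
    map_derivedSeries_le_derivedSeries _ d
  rw [h P, le_bot_iff, Subgroup.map_eq_bot_iff] at h1
  rw [eq_bot_iff]
  intro x hx
  have h2 := h1 hx
  rw [MonoidHom.mem_ker] at h2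
  rw [Subgroup.mem_bot]
  exact Subgroup.inclusion_injective hP (by rw [map_one]; exact h2)

theorem plusEightThree : PlusEightThree := by
  intro K _ _ hK
  have : Fact (Nat.Prime 2) := ⟨Nat.prime_two⟩
  have : Fact (Nat.Prime 3) := ⟨Nat.prime_three⟩
  have hch : CharP K 3 := by
    obtain ⟨p, hp⟩ := CharP.exists K
    let _ := Fintype.ofFinite K
    obtain ⟨n, hpp, hn⟩ := FiniteField.card K p
    rw [← Nat.card_eq_fintype_card, hK] at hn
    have h3 : p ∣ 3 := by
      rw [hn]
      exact dvd_pow_self p n.2.ne'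
    rwa [← (Nat.prime_dvd_prime_iff_eq hpp Nat.prime_three).1 h3]
  have h3 : (3 : K) = 0 := by exact_mod_cast CharP.cast_eq_zero K 3
  have ho : Odd (Nat.card K) := by rw [hK]; decide
  have h2 : (2 : K) ≠ 0 := two_ne_zero_of_odd (K := K) (p := 3) ho
  have hiso : Finite (isometryGroup K (quadFormPlus 4 K)) := inferInstance
  have hidx := plus_idx_four K (p := 3) ho (m := 4) le_rfl
  have hc1 : Nat.card (isometryGroup K (quadFormPlus 4 K)) = 2 * 3 ^ 12 * 80 * (8 * 80 * 728) := by
    have h4 := card_plusF K (m := 4) (by norm_num)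
    rw [← Nat.card_congr (isoQuad (CForm.plusF K 4) (plus_hB K 4)).toEquiv, hK] at h4
    refine Eq.trans h4 ?_
    simp [Finset.prod_range_succ]
  have hc2 : 4 * Nat.card (Omega K (quadFormPlus 4 K)) = 2 * 3 ^ 12 * 80 * (8 * 80 * 728) := by
    have h4 := Subgroup.index_mul_card (Omega K (quadFormPlus 4 K))
    rw [hidx] at h4
    rw [← hc1, ← h4]
  have hc3 : ¬ 2 ^ (13 + 1) ∣ Nat.card (Omega K (quadFormPlus 4 K)) := by
    rintro ⟨c, hc⟩
    rw [hc] at hc2
    omega
  have hO : DlLe 2 3 (Omega K (quadFormPlus 4 K)) :=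
    dlLe_of_sub (psiE h3) (psiE_inj h3 h2) card_ESP hc3 dlLe_ESP
  exact H755.Dl.DlLe_of_surjective (QuotientGroup.mk'_surjective _) (dlLe_sub hO)

end rep

end Cfsg.Agent.H674.Dl

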